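import Mathlib
import Cfsg.Agent.Lib.Forms.SympStd
import Cfsg.Agent.Lib.Laws.Embeddings
import Cfsg.Agent.Lib.GLn.UnipGen

/-!
Regular unipotent elements of symplectic groups: root elements of the radical of a point stabilizer.
-/

set_option autoImplicit false

namespace Cfsg.Agent.Lib.SpRegGen

open Matrix Cfsg.Agent.Lib.Forms

variable {F : Type*} [Field F] {n : ℕ}

abbrev Vec (n : ℕ) (F : Type*) := Fin n ⊕ Fin n → F
abbrev GG (n : ℕ) (F : Type*) [Field F] := GL (Fin n ⊕ Fin n) F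

/-- action on vectors -/
abbrev ap (g : GG n F) (x : Vec n F) : Vec n F := (g : Matrix (Fin n ⊕ Fin n) (Fin n ⊕ Fin n) F) *ᵥ x

/-- `k`-th standard vector of the first half -/
def ev (n : ℕ) (F : Type*) [Field F] (k : ℕ) : Vec n F :=
  if h : k < n then Pi.single (Sum.inl ⟨k, h⟩) 1 else 0

/-- `k`-th standard vector of the second half -/
def fv (n : ℕ) (F : Type*) [Field F] (k : ℕ) : Vec n F :=
  if h : k < n then Pi.single (Sum.inr ⟨k, h⟩) 1 else 0

local notation "β" => stdB n F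
local notation "Ev" => ev n F
local notation "Fv" => fv n F

theorem b_formula (x y : Vec n F) :
    β x y = ∑ i, (x (Sum.inr i) * y (Sum.inl i) - x (Sum.inl i) * y (Sum.inr i)) := by
  rw [stdB_apply, Cfsg.sympForm, dotProduct, Fintype.sum_sum_type, ← Finset.sum_add_distrib]
  refine Finset.sum_congr rfl fun i _ => ?_
  simp [Matrix.mulVec, dotProduct, Fintype.sum_sum_type, Matrix.J, Matrix.one_apply]
  ring

theorem b_self (x : Vec n F) : β x x = 0 := (stdB_isAlt n).self_eq_zero x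

theorem b_swap (x y : Vec n F) : β y x = - β x y := ((stdB_isAlt n).neg_eq x y).symm

theorem b_ev {k : ℕ} (h : k < n) (x : Vec n F) : β x (Ev k) = x (Sum.inr ⟨k, h⟩) := by
  rw [b_formula, Finset.sum_eq_single ⟨k, h⟩]
  · simp [ev, h]
  · intro i _ hi; simp [ev, h, Pi.single_apply, hi]
  · simp

theorem b_fv {k : ℕ} (h : k < n) (x : Vec n F) : β x (Fv k) = - x (Sum.inl ⟨k, h⟩) := by
  rw [b_formula, Finset.sum_eq_single ⟨k, h⟩]
  · simp [fv, h]
  · intro i _ hi; simp [fv, h, Pi.single_apply, hi]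
  · simp

theorem b_ee (i j : ℕ) : β (Ev i) (Ev j) = 0 := by
  by_cases hj : j < n
  · rw [b_ev hj]; unfold ev; split_ifs <;> simp
  · simp [ev, hj]

theorem b_fe (i j : ℕ) : β (Fv i) (Ev j) = if i = j ∧ i < n then 1 else 0 := by
  by_cases hj : j < n
  · rw [b_ev hj]; unfold fv
    split_ifs with h1 h2 h2
    · obtain ⟨rfl, _⟩ := h2; simp
    · simp [Pi.single_apply, Fin.ext_iff]; intro e; exact h2 ⟨e.symm, h1⟩
    · exact absurd h2.2 h1
    · simp
  · simp [ev, hj]; intro e; omega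

theorem b_ff (i j : ℕ) : β (Fv i) (Fv j) = 0 := by
  by_cases hj : j < n
  · rw [b_fv hj]; unfold fv; split_ifs <;> simp
  · simp [fv, hj]

theorem b_ef (i j : ℕ) : β (Ev i) (Fv j) = if i = j ∧ i < n then -1 else 0 := by
  rw [b_swap, b_fe]
  by_cases h : i = j ∧ i < n
  · obtain ⟨rfl, h⟩ := h; simp [h]
  · rw [if_neg h, if_neg (by rintro ⟨rfl, h'⟩; exact h ⟨rfl, h'⟩), neg_zero]

/-- short name for symplectic transvections -/
noncomputable abbrev T (v : Vec n F) (c : F) : GG n F := sympT (stdB n F) v c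

theorem T_ap (v : Vec n F) (c : F) (x : Vec n F) : ap (T v c) x = x + (c * β x v) • v :=
  sympT_mulVec (stdB_isAlt n) v c x

theorem T_iso (v : Vec n F) (c : F) : T v c ∈ isoGroup β := sympT_mem (stdB_isAlt n) v c

theorem ap_mul (g h : GG n F) (x : Vec n F) : ap (g * h) x = ap g (ap h x) := mul_mulVec' g h x

theorem ap_inv (g : GG n F) {x y : Vec n F} (h : ap g x = y) : ap g⁻¹ y = x := by
  rw [← h]; exact inv_mulVec_mulVec g x

theorem ext_ap {g h : GG n F} (e : ∀ x, ap g x = ap h x) : g = h := gl_ext e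

theorem b_ap {g : GG n F} (hg : g ∈ isoGroup β) (x y : Vec n F) : β (ap g x) (ap g y) = β x y :=
  mem_isoGroup.1 hg x y

theorem T_neg_vec (v : Vec n F) (c : F) : T (-v) c = T v c := by
  refine ext_ap fun y => ?_
  rw [T_ap, T_ap, map_neg, mul_neg, neg_smul_neg]

/-- the element `y ↦ y + B(y,x) e + B(y,e) x + c B(y,e) e`, for `x ⊥ e` -/
noncomputable def R (e x : Vec n F) (c : F) : GG n F := T (e + x) 1 * T x (-1) * T e (c - 1)

theorem R_iso (e x : Vec n F) (c : F) : R e x c ∈ isoGroup β :=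
  mul_mem (mul_mem (T_iso _ _) (T_iso _ _)) (T_iso _ _)

theorem R_ap {e x : Vec n F} (hx : β x e = 0) (c : F) (y : Vec n F) :
    ap (R e x c) y = y + (β y x) • e + (β y e) • x + (c * β y e) • e := by
  have h' : β e x = 0 := by rw [b_swap, hx, neg_zero]
  rw [R, ap_mul, ap_mul, T_ap, T_ap, T_ap]
  simp only [map_add, map_smul, LinearMap.add_apply, LinearMap.smul_apply, smul_eq_mul, b_self, hx,
    h', mul_zero, add_zero]
  module

theorem R_conj {g : GG n F} (hg : g ∈ isoGroup β) (e x : Vec n F) (c : F) :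
    g * R e x c * g⁻¹ = R (ap g e) (ap g x) c := by
  have h : ∀ v d, g * T v d * g⁻¹ = T (ap g v) d := fun v d => sympT_conj (stdB_isAlt n) hg v d
  rw [R, R, show ap g e + ap g x = ap g (e + x) from (Matrix.mulVec_add _ _ _).symm, ← h, ← h, ← h]
  group

theorem R_zero (e : Vec n F) (c : F) : R e 0 c = T e c := by
  refine ext_ap fun y => ?_
  rw [R_ap (by simp), T_ap]; simp

theorem R_mul {e x x' : Vec n F} (hx : β x e = 0) (hx' : β x' e = 0) (c c' : F) :
    R e x c * R e x' c' = R e (x + x') (c + c' + β x' x) := by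
  refine ext_ap fun y => ?_
  have hee : β e x = 0 := by rw [b_swap, hx, neg_zero]
  rw [ap_mul, R_ap hx', R_ap hx, R_ap (by rw [map_add, LinearMap.add_apply, hx, hx', add_zero])]
  simp only [map_add, map_smul, LinearMap.add_apply, LinearMap.smul_apply, smul_eq_mul, b_self, hx',
    hee, mul_zero, add_zero]
  module

theorem R_inv {e x : Vec n F} (hx : β x e = 0) (c : F) : (R e x c)⁻¹ = R e (-x) (-c) := by
  refine inv_eq_of_mul_eq_one_right ?_
  rw [R_mul hx (by simp [hx]), add_neg_cancel, add_neg_cancel, R_zero, map_neg, LinearMap.neg_apply,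
    b_self, neg_zero, add_zero]
  exact ext_ap fun y => by rw [T_ap]; simp [ap]

theorem R_shift {e x : Vec n F} (hx : β x e = 0) (c k : F) : R e (x + k • e) c = R e x (c + 2 * k) := by
  refine ext_ap fun y => ?_
  rw [R_ap (by simp [hx, b_self]), R_ap hx]
  simp only [map_add, map_smul, smul_eq_mul]
  module

/-- `R e₀ x c` lies in `M` -/
def RG (M : Subgroup (GG n F)) (x : Vec n F) (c : F) : Prop :=
  β x (Ev 0) = 0 ∧ R (Ev 0) x c ∈ M

variable {M : Subgroup (GG n F)}

theorem RG.add {x x' : Vec n F} {c c' : F} (h : RG M x c) (h' : RG M x' c') :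
    RG M (x + x') (c + c' + β x' x) :=
  ⟨by simp [h.1, h'.1], R_mul h.1 h'.1 c c' ▸ mul_mem h.2 h'.2⟩

theorem RG.neg {x : Vec n F} {c : F} (h : RG M x c) : RG M (-x) (-c) :=
  ⟨by simp [h.1], R_inv h.1 c ▸ inv_mem h.2⟩

theorem RG.zero : RG M 0 0 :=
  ⟨by simp, by rw [R_zero, show T (Ev 0) (0 : F) = 1 from ext_ap fun y => by rw [T_ap]; simp [ap]]; exact one_mem M⟩

theorem RG.shift {x : Vec n F} {c k : F} (h : RG M (x + k • Ev 0) c) : RG M x (c + 2 * k) := by
  have hx : β x (Ev 0) = 0 := by have := h.1; simpa [b_self] using this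
  exact ⟨hx, R_shift hx c k ▸ h.2⟩

/-- the commutator with an element fixing `e₀` -/
theorem RG.diff {g : GG n F} (hg : g ∈ M) (hgi : g ∈ isoGroup β) (hge : ap g (Ev 0) = Ev 0)
    {x : Vec n F} {c : F} (h : RG M x c) : RG M (ap g x - x) (β (ap g x) x) := by
  have h1 : RG M (ap g x) c := ⟨by
      conv_lhs => rw [← hge]
      rw [b_ap hgi]; exact h.1, by
      have := R_conj hgi (Ev 0) x c
      rw [hge] at this
      rw [← this]; exact mul_mem (mul_mem hg h.2) (inv_mem hg)⟩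
  have := h1.add h.neg
  rw [← sub_eq_add_neg] at this
  convert this using 1
  rw [map_neg, LinearMap.neg_apply, add_neg_cancel, zero_add, ← b_swap]

/-- the transvection coefficients available at `e₀` -/
def coeffs (M : Subgroup (GG n F)) : AddSubgroup F where
  carrier := {c | RG M 0 c}
  zero_mem' := RG.zero
  add_mem' {a b} ha hb := by
    have := RG.add ha hb
    simpa using this
  neg_mem' {a} ha := by
    have := RG.neg ha
    simpa using this

theorem mem_coeffs {c : F} : c ∈ coeffs M ↔ RG M 0 c := Iff.rfl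

theorem coeffs_T {c : F} (h : c ∈ coeffs M) : T (Ev 0) c ∈ M := by
  rw [← R_zero]; exact h.2

theorem coeffs_of_diff {x : Vec n F} {c d : F} (h : RG M x c) (h' : RG M x d) : c - d ∈ coeffs M := by
  have := h.add h'.neg
  rw [add_neg_cancel, map_neg, LinearMap.neg_apply, b_self, neg_zero, add_zero, ← sub_eq_add_neg] at this
  exact this

/-- the vectors whose whole line is available -/
def lines (M : Subgroup (GG n F)) : Submodule F (Vec n F) where
  carrier := {x | ∀ t : F, ∃ c, RG M (t • x) c}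
  zero_mem' t := ⟨0, by rw [smul_zero]; exact RG.zero⟩
  add_mem' {a b} ha hb t := by
    obtain ⟨c, hc⟩ := ha t; obtain ⟨d, hd⟩ := hb t
    exact ⟨_, by rw [smul_add]; exact hc.add hd⟩
  smul_mem' s x hx t := by rw [smul_smul]; exact hx (t * s)

theorem mem_lines {x : Vec n F} : x ∈ lines M ↔ ∀ t : F, ∃ c, RG M (t • x) c := Iff.rfl

theorem lines_ap {g : GG n F} (hg : g ∈ M) (hgi : g ∈ isoGroup β) (hge : ap g (Ev 0) = Ev 0)
    {x : Vec n F} (hx : x ∈ lines M) : ap g x ∈ lines M := by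
  intro t
  obtain ⟨c, hc⟩ := hx t
  have := (hc.diff hg hgi hge).add hc
  rw [sub_add_cancel, ap, Matrix.mulVec_smul] at this
  exact ⟨_, this⟩

theorem addSubgroup_eq_top {ζ : F} (hζ : ∀ a : F, a ≠ 0 → ∃ k : ℕ, a = ζ ^ k) (A : AddSubgroup F)
    {x₀ : F} (hx₀ : x₀ ∈ A) (h0 : x₀ ≠ 0) (hA : ∀ t ∈ A, ζ * t ∈ A) : ∀ t, t ∈ A := by
  have h : ∀ k : ℕ, ζ ^ k * x₀ ∈ A := fun k => by
    induction k with
    | zero => simpa using hx₀
    | succ k ih => rw [pow_succ', mul_assoc]; exact hA _ ih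
  intro t
  by_cases ht : t = 0
  · subst ht; exact zero_mem A
  obtain ⟨k, hk⟩ := hζ (t / x₀) (div_ne_zero ht h0)
  have := h k
  rwa [← hk, div_mul_cancel₀ _ h0] at this

theorem exists_zeta [Fintype F] : ∃ ζ : F, ζ ≠ 0 ∧ ∀ a : F, a ≠ 0 → ∃ k : ℕ, a = ζ ^ k := by
  obtain ⟨g, hg⟩ := IsCyclic.exists_monoid_generator (α := Fˣ)
  refine ⟨g, g.ne_zero, fun a ha => ?_⟩
  obtain ⟨k, hk⟩ := Submonoid.mem_powers_iff _ _ |>.1 (hg (Units.mk0 a ha))
  exact ⟨k, by rw [← Units.val_pow_eq_pow_val, hk]; rfl⟩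

theorem exists_sqrt_two [Finite F] (h2 : (2 : F) = 0) (a : F) : ∃ b : F, b ^ 2 = a := by
  haveI : CharP F 2 := CharTwo.of_one_ne_zero_of_two_eq_zero one_ne_zero h2
  have hinj : Function.Injective (fun x : F => x ^ 2) := fun x y hxy => by
    simpa using frobenius_inj F 2 (show frobenius F 2 x = frobenius F 2 y by simpa [frobenius_def] using hxy)
  exact (Finite.injective_iff_surjective.1 hinj) a

theorem coeffs_top_of_sq [Finite F] (h : ∀ t : F, t ^ 2 ∈ coeffs M) (h' : ∀ t : F, 2 * t ∈ coeffs M) :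
    ∀ c, c ∈ coeffs M := by
  intro c
  by_cases h2 : (2 : F) = 0
  · obtain ⟨b, rfl⟩ := exists_sqrt_two h2 c; exact h b
  · have := h' (c / 2); rwa [mul_div_cancel₀ _ h2] at this

/-- endgame -/
theorem iso_le (hn : 0 < n) (hA : ∀ c, c ∈ coeffs M) (hL : ∀ x, β x (Ev 0) = 0 → x ∈ lines M)
    (hy : ∃ g ∈ M, g ∈ isoGroup β ∧ β (ap g (Ev 0)) (Ev 0) ≠ 0) : isoGroup β ≤ M := by
  have h2 : ∀ x c, β x (Ev 0) = 0 → R (Ev 0) x c ∈ M := fun x c hx => by
    obtain ⟨d, hd⟩ := hL x hx 1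
    rw [one_smul] at hd
    have := hd.add (hA (c - d))
    simp only [add_zero, map_zero, LinearMap.zero_apply, add_sub_cancel] at this
    exact this.2
  obtain ⟨g, hgM, hgi, hg⟩ := hy
  set e := Ev 0
  set y := ap g e
  have he : e ∈ centres β M := fun c => coeffs_T (hA c)
  have hyc : y ∈ centres β M := mulVec_mem_centres (stdB_isAlt n) hgM hgi he
  set b := β y e
  have hoff : ∀ p, β p e ≠ 0 → p ∈ centres β M := by
    intro p hp
    set p' := (b / β p e) • p with hp'
    have hb' : β p' e = b := by simp [hp', div_mul_cancel₀ _ hp]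
    set z := b⁻¹ • (p' - y) with hz
    have hze : β z e = 0 := by simp [hz, hb', b]
    have key : ap (R e z (-(β y z) / b)) y = p' := by
      rw [R_ap hze]
      change y + β y z • e + b • z + (-(β y z) / b * b) • e = p'
      rw [div_mul_cancel₀ _ hg, hz, smul_smul, mul_inv_cancel₀ hg, one_smul]
      module
    have hp'c : p' ∈ centres β M := by
      rw [← key]; exact mulVec_mem_centres (stdB_isAlt n) (h2 z _ hze) (R_iso _ _ _) hyc
    have : p = (β p e / b) • p' := by
      rw [hp', smul_smul, div_mul_div_comm, mul_comm, div_self (mul_ne_zero hg hp), one_smul]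
    rw [this]; exact smul_mem_centres (stdB_isAlt n) _ hp'c
  refine isoGroup_le_of_centres (stdB_isAlt n) (stdB_nondegenerate n) fun p => ?_
  by_cases hp : β p e = 0
  · by_cases hp0 : p = 0
    · subst hp0
      intro c
      rw [show sympT β (0 : Vec n F) c = 1 from ext_ap fun x => by rw [T_ap]; simp [ap]]
      exact one_mem M
    · obtain ⟨r, hr1, hr2⟩ : ∃ r, β r e ≠ 0 ∧ β p r ≠ 0 := by
        obtain ⟨r₁, hr₁⟩ : ∃ r, β p r ≠ 0 := by
          by_contra! h; exact hp0 ((stdB_nondegenerate n).1 p h)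
        by_cases h1 : β r₁ e ≠ 0
        · exact ⟨r₁, h1, hr₁⟩
        by_cases h3 : β p y ≠ 0
        · exact ⟨y, hg, h3⟩
        push_neg at h1 h3
        exact ⟨r₁ + y, by simp [h1]; exact hg, by simp [h3, hr₁]⟩
      have := add_smul_mem_centres (stdB_isAlt n) (hoff (p + r) (by simp [hp, hr1])) (hoff r hr1)
        (by simp [b_self, hr2]) (-1)
      simpa using this
  · exact hoff p hp

/-- Packaging: inverses of generators. -/
theorem package {u g w : GG n F} (hu : u ∈ isoGroup β) (hg : g ∈ isoGroup β) (hw : w ∈ isoGroup β)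
    (hnil : IsNilpotent (((u⁻¹ : GG n F) : Matrix (Fin n ⊕ Fin n) (Fin n ⊕ Fin n) F) - 1))
    (hreg : (((u⁻¹ : GG n F) : Matrix (Fin n ⊕ Fin n) (Fin n ⊕ Fin n) F) - 1) ^ (2 * n - 1) ≠ 0)
    (hgen : ∀ M : Subgroup (GG n F), u ∈ M → g * u * g⁻¹ ∈ M → w * u * w⁻¹ ∈ M → isoGroup β ≤ M) :
    ∃ u g h : Matrix.symplecticGroup (Fin n) F,
      IsNilpotent ((u : Matrix (Fin n ⊕ Fin n) (Fin n ⊕ Fin n) F) - 1) ∧
      ((u : Matrix (Fin n ⊕ Fin n) (Fin n ⊕ Fin n) F) - 1) ^ (2 * n - 1) ≠ 0 ∧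
      Subgroup.closure ({u, g * u * g⁻¹, h * u * h⁻¹} : Set (Matrix.symplecticGroup (Fin n) F)) = ⊤ := by
  obtain ⟨U, hU⟩ := exists_spToGL_eq (inv_mem hu)
  obtain ⟨G, hG⟩ := exists_spToGL_eq hg
  obtain ⟨W, hW⟩ := exists_spToGL_eq hw
  have hval : (U : Matrix (Fin n ⊕ Fin n) (Fin n ⊕ Fin n) F) = ((u⁻¹ : GG n F) : Matrix _ _ F) := by
    rw [← hU, spToGL_val]
  refine ⟨U, G, W, by rw [hval]; exact hnil, by rw [hval]; exact hreg, ?_⟩
  set H := Subgroup.closure ({U, G * U * G⁻¹, W * U * W⁻¹} : Set (Matrix.symplecticGroup (Fin n) F))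
  have hm : ∀ x ∈ H, spToGL n F x ∈ H.map (spToGL n F) := fun x hx => ⟨x, hx, rfl⟩
  have h := hgen (H.map (spToGL n F))
    (by
      have := hm _ (inv_mem (Subgroup.subset_closure (show U ∈ _ by simp)))
      rwa [map_inv, hU, inv_inv] at this)
    (by
      have := hm _ (inv_mem (Subgroup.subset_closure (show G * U * G⁻¹ ∈ _ by simp)))
      simp only [map_inv, map_mul, hU, hG, _root_.mul_inv_rev, inv_inv, ← mul_assoc] at this
      exact this)
    (by
      have := hm _ (inv_mem (Subgroup.subset_closure (show W * U * W⁻¹ ∈ _ by simp)))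
      simp only [map_inv, map_mul, hU, hW, _root_.mul_inv_rev, inv_inv, ← mul_assoc] at this
      exact this)
  refine (Subgroup.eq_top_iff' H).2 fun x => ?_
  obtain ⟨y, hy, hxy⟩ := h ((mem_iso_stdB_iff n (spToGL n F x)).2 (by rw [spToGL_val]; exact x.2))
  exact spToGL_injective n hxy ▸ hy

/-! ### The regular element and the Weyl elements -/

/-- Levi embedding -/
noncomputable def levi (n : ℕ) (F : Type*) [Field F] : GL (Fin n) F →* GG n F :=
  (spToGL n F).comp (Cfsg.Agent.Lib.Laws.glToSp n F)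

theorem levi_iso (P : GL (Fin n) F) : levi n F P ∈ isoGroup β := by
  rw [mem_iso_stdB_iff]; exact (Cfsg.Agent.Lib.Laws.glToSp n F P).2

theorem levi_ap (P : GL (Fin n) F) (x y : Fin n → F) :
    ap (levi n F P) (Sum.elim x y) =
      Sum.elim ((P : Matrix (Fin n) (Fin n) F) *ᵥ x) ((((P⁻¹ : GL (Fin n) F) : Matrix (Fin n) (Fin n) F))ᵀ *ᵥ y) := by
  change (fromBlocks (P : Matrix (Fin n) (Fin n) F) 0 0
    (((P⁻¹ : GL (Fin n) F) : Matrix (Fin n) (Fin n) F))ᵀ) *ᵥ _ = _
  rw [fromBlocks_mulVec]; simp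

/-- `k`-th standard vector -/
def sv (n : ℕ) (F : Type*) [Field F] (k : ℕ) : Fin n → F := fun i => if (i : ℕ) = k then 1 else 0

theorem ev_elim (k : ℕ) : Ev k = Sum.elim (sv n F k) (0 : Fin n → F) := by
  funext x; rcases x with i | i <;> unfold ev sv <;> split_ifs with h <;>
    simp [Pi.single_apply, Fin.ext_iff] <;> omega

theorem fv_elim (k : ℕ) : Fv k = Sum.elim (0 : Fin n → F) (sv n F k) := by
  funext x; rcases x with i | i <;> unfold fv sv <;> split_ifs with h <;>
    simp [Pi.single_apply, Fin.ext_iff] <;> omega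

/-- the Jordan block as a unit -/
noncomputable def jord (n : ℕ) (F : Type*) [Field F] : GL (Fin n) F :=
  Matrix.SpecialLinearGroup.toGL (Cfsg.Agent.Lib.GLn.upperJordan n F)

theorem jord_succ (k : ℕ) (hk : k + 1 < n) :
    (jord n F : Matrix (Fin n) (Fin n) F) *ᵥ sv n F (k + 1) = sv n F (k + 1) + sv n F k := by
  funext i
  change ((Cfsg.Agent.Lib.GLn.upperJordan n F : Matrix (Fin n) (Fin n) F) *ᵥ _) i = _
  rw [Cfsg.Agent.Lib.GLn.upperJordan_mulVec]
  simp only [sv, Pi.add_apply]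
  congr 1
  by_cases h : (i : ℕ) + 1 < n
  · rw [dif_pos h]; simp
  · rw [dif_neg h, if_neg (by omega)]

theorem jord_zero : (jord n F : Matrix (Fin n) (Fin n) F) *ᵥ sv n F 0 = sv n F 0 := by
  funext i
  change ((Cfsg.Agent.Lib.GLn.upperJordan n F : Matrix (Fin n) (Fin n) F) *ᵥ _) i = _
  rw [Cfsg.Agent.Lib.GLn.upperJordan_mulVec]
  by_cases h : (i : ℕ) + 1 < n
  · rw [dif_pos h]; simp [sv]
  · rw [dif_neg h, add_zero]

theorem jord_transpose (k : ℕ) (hk : k < n) :
    (jord n F : Matrix (Fin n) (Fin n) F)ᵀ *ᵥ sv n F k = sv n F k + sv n F (k + 1) := by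
  funext i
  rw [mulVec, dotProduct, Finset.sum_eq_single ⟨k, hk⟩]
  · change (if _ then (1 : F) else 0) * _ = _
    simp only [sv, Pi.add_apply, if_true, mul_one]
    by_cases h1 : (i : ℕ) = k
    · rw [if_pos (Or.inl (Fin.ext h1.symm)), if_pos h1, if_neg (by omega), add_zero]
    · by_cases h2 : (i : ℕ) = k + 1
      · rw [if_pos (Or.inr h2.symm), if_neg h1, if_pos h2, zero_add]
      · rw [if_neg, if_neg h1, if_neg h2, add_zero]
        rintro (h | h)
        · exact h1 (by rw [← h])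
        · exact h2 h.symm
  · intro b _ hb; rw [sv, if_neg (fun h => hb (Fin.ext h)), mul_zero]
  · simp

/-- the regular element -/
noncomputable def uu (n : ℕ) (F : Type*) [Field F] : GG n F :=
  T (ev n F (n - 1)) 1 * levi n F (jord n F)

theorem uu_iso : uu n F ∈ isoGroup β := mul_mem (T_iso _ _) (levi_iso _)

theorem uu_e0 : ap (uu n F) (Ev 0) = Ev 0 := by
  rw [uu, ap_mul, ev_elim 0, levi_ap, jord_zero, mulVec_zero, ← ev_elim, T_ap, b_ee]; simp

theorem uu_ev (k : ℕ) (hk : k + 1 < n) : ap (uu n F) (Ev (k + 1)) = Ev (k + 1) + Ev k := by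
  have h : Sum.elim (sv n F (k + 1) + sv n F k) (0 : Fin n → F) = Ev (k + 1) + Ev k := by
    rw [ev_elim, ev_elim]; funext x; rcases x with i | i <;> simp
  rw [uu, ap_mul, ev_elim (k + 1), levi_ap, jord_succ k hk, mulVec_zero, h, T_ap, map_add,
    LinearMap.add_apply, b_ee, b_ee]
  simp [ev_elim]

theorem levi_fv (k : ℕ) (hk : k < n) : ap (levi n F (jord n F)) (Fv k + Fv (k + 1)) = Fv k := by
  have h : Fv k + Fv (k + 1) = Sum.elim (0 : Fin n → F) (sv n F k + sv n F (k + 1)) := by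
    rw [fv_elim, fv_elim]; funext x; rcases x with i | i <;> simp
  rw [h, levi_ap, mulVec_zero, fv_elim]
  congr 1
  rw [← jord_transpose k hk, mulVec_mulVec, ← transpose_mul, ← Units.val_mul, mul_inv_cancel]
  simp

theorem uu_fv (k : ℕ) (hk : k + 1 < n) : ap (uu n F) (Fv k + Fv (k + 1)) = Fv k := by
  rw [uu, ap_mul, levi_fv k (by omega), T_ap, b_fe, if_neg (by omega)]; simp

theorem uu_last (hn : 0 < n) : ap (uu n F) (Fv (n - 1)) = Fv (n - 1) + Ev (n - 1) := by
  have h0 : Fv (n - 1) + Fv (n - 1 + 1) = Fv (n - 1) := by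
    rw [show Fv (n - 1 + 1) = 0 from dif_neg (by omega), add_zero]
  rw [uu, ap_mul]
  conv_lhs => rw [← h0]
  rw [levi_fv _ (by omega), T_ap, b_fe, if_pos ⟨rfl, by omega⟩]; simp

theorem uu_inv_fv (k : ℕ) (hk : k + 1 < n) : ap (uu n F)⁻¹ (Fv k) = Fv k + Fv (k + 1) :=
  ap_inv _ (uu_fv k hk)

theorem ap_pow (g : GG n F) (x : Vec n F) (h : ap g x = x) : ap g⁻¹ x = x := ap_inv g h

theorem uu_regular (hn : 0 < n) :
    IsNilpotent (((uu n F)⁻¹ : GG n F).val - 1) ∧ (((uu n F)⁻¹ : GG n F).val - 1) ^ (2 * n - 1) ≠ 0 := by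
  set ui : Matrix (Fin n ⊕ Fin n) (Fin n ⊕ Fin n) F := ((uu n F)⁻¹ : GG n F).val
  set N := ui - 1
  have hc : Commute N ui := (Commute.refl ui).sub_left (Commute.one_left ui)
  have hN : ∀ x, N *ᵥ x = ui *ᵥ x - x := fun x => by simp [N, sub_mulVec]
  have he0 : ui *ᵥ Ev 0 = Ev 0 := ap_inv _ uu_e0
  have hes : ∀ k, k + 1 < n → N *ᵥ Ev (k + 1) = -(ui *ᵥ Ev k) := by
    intro k hk
    have := ap_inv _ (uu_ev (F := F) k hk)
    change ui *ᵥ _ = _ at this
    rw [mulVec_add] at this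
    rw [hN, sub_eq_iff_eq_add]
    conv_rhs => rw [← this]
    abel
  have hfl : N *ᵥ Fv (n - 1) = -(ui *ᵥ Ev (n - 1)) := by
    have := ap_inv _ (uu_last (F := F) hn)
    change ui *ᵥ _ = _ at this
    rw [mulVec_add] at this
    rw [hN, sub_eq_iff_eq_add]
    conv_rhs => rw [← this]
    abel
  have hfs : ∀ k, k + 1 < n → N *ᵥ Fv k = Fv (k + 1) := fun k hk => by
    rw [hN]; change ap (uu n F)⁻¹ _ - _ = _; rw [uu_inv_fv k hk, add_sub_cancel_left]
  have hE : ∀ j, j < n → (N ^ j) *ᵥ Ev j = (-1 : F) ^ j • Ev 0 ∧ (N ^ (j + 1)) *ᵥ Ev j = 0 := by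
    intro j
    induction j with
    | zero => intro _; exact ⟨by simp, by rw [pow_one, hN, he0, sub_self]⟩
    | succ j ih =>
      intro hj
      obtain ⟨h1, h2⟩ := ih (by omega)
      constructor
      · rw [pow_succ, ← mulVec_mulVec, hes j hj, mulVec_neg, mulVec_mulVec, (hc.pow_left j).eq,
          ← mulVec_mulVec, h1, mulVec_smul, he0, pow_succ]
        simp
      · rw [pow_succ, ← mulVec_mulVec, hes j hj, mulVec_neg, mulVec_mulVec, (hc.pow_left _).eq,
          ← mulVec_mulVec, h2, mulVec_zero, neg_zero]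
  have hF : ∀ i, i < n → (N ^ i) *ᵥ Fv (n - 1 - i) = Fv (n - 1) := by
    intro i
    induction i with
    | zero => intro _; simp
    | succ i ih =>
      intro hi
      rw [pow_succ, ← mulVec_mulVec, hfs _ (by omega), show n - 1 - (i + 1) + 1 = n - 1 - i by omega]
      exact ih (by omega)
  have hlast : (N ^ n) *ᵥ Fv (n - 1) = -((-1 : F) ^ (n - 1) • Ev 0) := by
    rw [show N ^ n = N ^ (n - 1) * N by rw [← pow_succ]; congr 1; omega, ← mulVec_mulVec,
      hfl, mulVec_neg, mulVec_mulVec, (hc.pow_left _).eq, ← mulVec_mulVec, (hE _ (by omega)).1,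
      mulVec_smul, he0]
  constructor
  · refine ⟨2 * n, Matrix.ext_of_mulVec_single fun x => ?_⟩
    rw [zero_mulVec]
    rcases x with i | i
    · rw [show (Pi.single (Sum.inl i) 1 : Vec n F) = Ev i by simp [ev],
        show 2 * n = 2 * n - (i + 1) + (i + 1) by omega, pow_add, ← mulVec_mulVec, (hE i i.2).2,
        mulVec_zero]
    · have hi : n - 1 - (n - 1 - (i : ℕ)) = i := by omega
      have := hF (n - 1 - i) (by omega)
      rw [hi] at this
      rw [show (Pi.single (Sum.inr i) 1 : Vec n F) = Fv i by simp [fv],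
        show 2 * n = (2 * n - (n - 1 - i) - n) + n + (n - 1 - i) by omega, pow_add, ← mulVec_mulVec,
        this, pow_add, ← mulVec_mulVec, hlast, mulVec_neg, mulVec_smul]
      obtain ⟨d, hd⟩ : ∃ d, 2 * n - (n - 1 - (i : ℕ)) - n = d + 1 := ⟨2 * n - (n - 1 - (i : ℕ)) - n - 1, by omega⟩
      rw [hd, pow_succ, ← mulVec_mulVec, show N *ᵥ Ev 0 = 0 by rw [hN, he0, sub_self]]
      simp
  · intro h0
    have := hF (n - 1) (by omega)
    rw [Nat.sub_self] at this
    have h1 : (N ^ (2 * n - 1)) *ᵥ Fv 0 = -((-1 : F) ^ (n - 1) • Ev 0) := by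
      rw [show 2 * n - 1 = n + (n - 1) by omega, pow_add, ← mulVec_mulVec, this, hlast]
    rw [h0, zero_mulVec] at h1
    have h2 := congrFun h1 (Sum.inl ⟨0, hn⟩)
    simp [ev, hn] at h2

/-- a submodule stable under the regular element containing `f₁` contains `e₀⊥` -/
theorem span_all (S : Submodule F (Vec n F)) (hn : 2 ≤ n) (hu : ∀ x ∈ S, ap (uu n F) x ∈ S)
    (hu' : ∀ x ∈ S, ap (uu n F)⁻¹ x ∈ S) (h1 : Fv 1 ∈ S) : ∀ x, β x (Ev 0) = 0 → x ∈ S := by
  have hf : ∀ k, 1 ≤ k → k < n → Fv k ∈ S := by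
    intro k
    induction k with
    | zero => omega
    | succ k ih =>
      intro _ hk
      rcases Nat.eq_zero_or_pos k with rfl | hk0
      · exact h1
      have h := hu' _ (ih hk0 (by omega))
      rw [uu_inv_fv k hk] at h
      have := S.sub_mem h (ih hk0 (by omega))
      rwa [add_sub_cancel_left] at this
  have hl : Ev (n - 1) ∈ S := by
    have hfn := hf (n - 1) (by omega) (by omega)
    have h := hu _ hfn
    rw [uu_last (by omega)] at h
    simpa using S.sub_mem h hfn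
  have he : ∀ i, i < n → Ev (n - 1 - i) ∈ S := by
    intro i
    induction i with
    | zero => intro _; simpa using hl
    | succ i ih =>
      intro hi
      have h := ih (by omega)
      rw [show n - 1 - i = n - 1 - (i + 1) + 1 by omega] at h
      have h' := hu _ h
      rw [uu_ev _ (by omega)] at h'
      simpa using S.sub_mem h' h
  intro x hx
  have hx0 : x (Sum.inr ⟨0, by omega⟩) = 0 := by rwa [b_ev (by omega)] at hx
  rw [show x = ∑ j, x j • (Pi.single j 1 : Vec n F) by ext j; simp [Pi.single_apply]]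
  refine S.sum_mem fun j _ => ?_
  rcases j with j | j
  · refine S.smul_mem _ ?_
    have := he (n - 1 - j) (by omega)
    rw [show n - 1 - (n - 1 - (j : ℕ)) = j by omega] at this
    simpa [ev] using this
  · by_cases h0 : (j : ℕ) = 0
    · rw [show j = ⟨0, by omega⟩ from Fin.ext h0, hx0, zero_smul]; exact S.zero_mem
    · refine S.smul_mem _ ?_
      have := hf j (by omega) j.2
      simpa [fv] using this

end Cfsg.Agent.Lib.SpRegGen
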