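import Cfsg.Agent.Lib.SpRegGen.Basic

/-!
Three conjugates of a regular unipotent element generate the symplectic group.
-/

set_option autoImplicit false

namespace Cfsg.Agent.Lib.SpRegGen

open Matrix Cfsg.Agent.Lib.Forms

variable {F : Type*} [Field F] {n : ℕ}

local notation "β" => stdB n F
local notation "Ev" => ev n F
local notation "Fv" => fv n F
local notation "uA" => uu n F

/-- local Weyl element -/
noncomputable def wl (n : ℕ) (F : Type*) [Field F] (k : ℕ) : GG n F :=
  T (ev n F k) 1 * T (fv n F k) 1 * T (ev n F k) 1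

theorem wl_iso (k : ℕ) : wl n F k ∈ isoGroup β := mul_mem (mul_mem (T_iso _ _) (T_iso _ _)) (T_iso _ _)

theorem wl_ev (k j : ℕ) : ap (wl n F k) (Ev j) = if j = k ∧ j < n then -Fv k else Ev j := by
  have h1 : ap (T (Ev k) 1) (Ev j) = Ev j := by rw [T_ap]; simp [b_ee]
  rw [wl, ap_mul, ap_mul, h1]
  by_cases h : j = k ∧ j < n
  · obtain ⟨rfl, hj⟩ := h
    have h2 : ap (T (Fv j) 1) (Ev j) = Ev j - Fv j := by
      rw [T_ap]; simp [b_ef, hj, sub_eq_add_neg]
    rw [if_pos ⟨rfl, hj⟩, h2, T_ap]; simp [b_fe, b_ee, hj]; abel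
  · have h2 : ap (T (Fv k) 1) (Ev j) = Ev j := by rw [T_ap]; simp [b_ef, h]
    rw [if_neg h, h2, h1]

theorem wl_fv (k j : ℕ) : ap (wl n F k) (Fv j) = if j = k ∧ j < n then Ev k else Fv j := by
  by_cases h : j = k ∧ j < n
  · obtain ⟨rfl, hj⟩ := h
    have h1 : ap (T (Ev j) 1) (Fv j) = Fv j + Ev j := by rw [T_ap]; simp [b_fe, hj]
    have h2 : ap (T (Fv j) 1) (Fv j + Ev j) = Ev j := by
      rw [T_ap]; simp [b_ff, b_ef, hj]
    rw [wl, ap_mul, ap_mul, h1, h2, if_pos ⟨rfl, hj⟩, T_ap]; simp [b_ee]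
  · have h1 : ap (T (Ev k) 1) (Fv j) = Fv j := by rw [T_ap]; simp [b_fe, h]
    have h2 : ap (T (Fv k) 1) (Fv j) = Fv j := by rw [T_ap]; simp [b_ff]
    rw [wl, ap_mul, ap_mul, h1, h2, h1, if_neg h]

/-- the cyclic shift by two -/
def shiftTwo (n : ℕ) (hn : 3 ≤ n) : Fin n ≃ Fin n where
  toFun j := if h : (j : ℕ) + 2 < n then ⟨j + 2, h⟩ else ⟨j + 2 - n, by omega⟩
  invFun j := if h : 2 ≤ (j : ℕ) then ⟨j - 2, by omega⟩ else ⟨j + n - 2, by omega⟩
  left_inv j := by
    apply Fin.ext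
    by_cases h : (j : ℕ) + 2 < n
    · simp [h]
    · simp only [dif_neg h]; split_ifs <;> simp <;> omega
  right_inv j := by
    have := j.2
    by_cases h : 2 ≤ (j : ℕ)
    · simp only [dif_pos h, show (j : ℕ) - 2 + 2 < n by omega, dif_pos]
      apply Fin.ext; simp; omega
    · simp only [dif_neg h, show ¬ ((j : ℕ) + n - 2 + 2 < n) by omega, dif_neg, not_false_iff]
      apply Fin.ext; simp; omega

/-- permutation matrix -/
def permMat (π : Fin n ≃ Fin n) : Matrix (Fin n) (Fin n) F :=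
  Matrix.of fun i j => if i = π j then 1 else 0

theorem permMat_mul (π ρ : Fin n ≃ Fin n) :
    (permMat π * permMat ρ : Matrix (Fin n) (Fin n) F) = permMat (ρ.trans π) := by
  ext i j; simp [permMat, Matrix.mul_apply] <;> congr

theorem permMat_one : (permMat (Equiv.refl (Fin n)) : Matrix (Fin n) (Fin n) F) = 1 := by
  ext i j; simp [permMat, Matrix.one_apply] <;> congr

/-- permutation matrix as a unit -/
def permU (π : Fin n ≃ Fin n) : GL (Fin n) F :=
  ⟨permMat π, permMat π.symm, by rw [permMat_mul, Equiv.symm_trans_self, permMat_one],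
    by rw [permMat_mul, Equiv.self_trans_symm, permMat_one]⟩

theorem permMat_sv (π : Fin n ≃ Fin n) (k : ℕ) (hk : k < n) :
    (permMat π : Matrix (Fin n) (Fin n) F) *ᵥ sv n F k = sv n F (π ⟨k, hk⟩) := by
  funext i
  rw [mulVec, dotProduct, Finset.sum_eq_single ⟨k, hk⟩]
  · simp [permMat, sv, Fin.ext_iff]
  · intro b _ hb; rw [sv, if_neg (fun h => hb (Fin.ext h)), mul_zero]
  · simp

theorem perm_ev (π : Fin n ≃ Fin n) (k : ℕ) (hk : k < n) :
    ap (levi n F (permU π)) (Ev k) = Ev (π ⟨k, hk⟩) := by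
  rw [ev_elim, levi_ap, ev_elim, mulVec_zero]
  congr 1
  exact permMat_sv π k hk

theorem perm_fv (π : Fin n ≃ Fin n) (k : ℕ) (hk : k < n) :
    ap (levi n F (permU π)) (Fv k) = Fv (π ⟨k, hk⟩) := by
  rw [fv_elim, levi_ap, fv_elim, mulVec_zero]
  congr 1
  have : (((permU (F := F) π)⁻¹ : GL (Fin n) F) : Matrix (Fin n) (Fin n) F)ᵀ = permMat π := by
    ext i j
    change (if j = π.symm i then (1 : F) else 0) = if i = π j then 1 else 0
    simp [Equiv.eq_symm_apply, eq_comm]
  rw [this]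
  exact permMat_sv π k hk

theorem conj_ap (w : GG n F) {p q : Vec n F} (h : ap w p = q) :
    ap (w * uA * w⁻¹) q = ap w (ap uA p) := by
  rw [ap_mul, ap_mul, ap_inv w h]

variable {M : Subgroup (GG n F)}

/-- the first commutator -/
theorem start (hn : 2 ≤ n) (ω : F) (hu : uA ∈ M)
    (hg : R (Ev 0) (ω • Fv (n - 1)) 0 * uA * (R (Ev 0) (ω • Fv (n - 1)) 0)⁻¹ ∈ M) :
    RG M ((-ω) • Ev (n - 1)) (ω ^ 2) := by
  have hx : β (ω • Fv (n - 1)) (Ev 0) = 0 := by simp [b_fe]; omega
  set g := R (Ev 0) (ω • Fv (n - 1)) 0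
  have h1 : g * uA * g⁻¹ * uA⁻¹ = g * (uA * g * uA⁻¹)⁻¹ := by group
  have h2 := mul_mem hg (inv_mem hu)
  have hy : β (ap uA (ω • Fv (n - 1))) (Ev 0) = 0 := by
    conv_lhs => rw [← uu_e0 (n := n) (F := F)]
    rw [b_ap uu_iso]; exact hx
  rw [h1, R_conj uu_iso, uu_e0, R_inv hy, R_mul hx (by simp [hy])] at h2
  have key : ω • Fv (n - 1) + -ap uA (ω • Fv (n - 1)) = (-ω) • Ev (n - 1) := by
    rw [ap, Matrix.mulVec_smul, show (uA : GG n F).val *ᵥ Fv (n - 1) = _ from uu_last (by omega)]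
    module
  have kc : (0 : F) + -0 + β (-ap uA (ω • Fv (n - 1))) (ω • Fv (n - 1)) = ω ^ 2 := by
    rw [ap, Matrix.mulVec_smul, show (uA : GG n F).val *ᵥ Fv (n - 1) = _ from uu_last (by omega)]
    simp [b_ff, b_ef, b_self, show n - 1 < n by omega]; ring
  rw [key, kc] at h2
  exact ⟨by simp [b_ee], h2⟩

/-- the submodule of vectors all whose `M`-images are orthogonal to `e₀` -/
def perpCore (M : Subgroup (GG n F)) : Submodule F (Vec n F) where
  carrier := {x | ∀ g ∈ M, β (ap g x) (Ev 0) = 0}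
  zero_mem' g _ := by simp [ap]
  add_mem' {a b} ha hb g hg := by
    rw [ap, Matrix.mulVec_add, map_add, LinearMap.add_apply, ha g hg, hb g hg, add_zero]
  smul_mem' s x hx g hg := by
    rw [ap, Matrix.mulVec_smul, map_smul, LinearMap.smul_apply, hx g hg, smul_zero]

theorem perpCore_ap {g : GG n F} (hg : g ∈ M) {x : Vec n F} (hx : x ∈ perpCore M) :
    ap g x ∈ perpCore M := fun h hh => by rw [← ap_mul]; exact hx _ (mul_mem hh hg)

/-- The case `n ≥ 3`. -/
theorem gen_big [Fintype F] (hn : 3 ≤ n) :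
    ∃ g w : GG n F, g ∈ isoGroup β ∧ w ∈ isoGroup β ∧
      ∀ M : Subgroup (GG n F), uA ∈ M → g * uA * g⁻¹ ∈ M → w * uA * w⁻¹ ∈ M → isoGroup β ≤ M := by
  obtain ⟨ζ, hζ0, hζ⟩ := exists_zeta (F := F)
  set ω : F := -ζ with hωdef
  set π := shiftTwo n hn with hπ
  set w := wl n F 1 * levi n F (permU π) with hw
  have hwi : w ∈ isoGroup β := mul_mem (wl_iso _) (levi_iso _)
  refine ⟨R (Ev 0) (ω • Fv (n - 1)) 0, w, R_iso _ _ _, hwi, fun M hu hg hv => ?_⟩
  set v := w * uA * w⁻¹ with hvdef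
  have hvi : v ∈ isoGroup β := mul_mem (mul_mem hwi uu_iso) (inv_mem hwi)
  have hπlo : ∀ k (h : k + 2 < n), (π ⟨k, by omega⟩ : ℕ) = k + 2 := fun k h => by
    simp [hπ, shiftTwo, h]
  have hπ0 : (π ⟨n - 2, by omega⟩ : ℕ) = 0 := by
    simp [hπ, shiftTwo, show ¬ (n - 2 + 2 < n) by omega]; omega
  have hπ1 : (π ⟨n - 1, by omega⟩ : ℕ) = 1 := by
    simp [hπ, shiftTwo, show ¬ (n - 1 + 2 < n) by omega]; omega
  have wE : ∀ k, k + 2 < n → ap w (Ev k) = Ev (k + 2) := fun k h => by
    rw [hw, ap_mul, perm_ev π k (by omega), hπlo k h, wl_ev, if_neg (by omega)]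
  have wF : ∀ k, k + 2 < n → ap w (Fv k) = Fv (k + 2) := fun k h => by
    rw [hw, ap_mul, perm_fv π k (by omega), hπlo k h, wl_fv, if_neg (by omega)]
  have wE2 : ap w (Ev (n - 2)) = Ev 0 := by
    rw [hw, ap_mul, perm_ev π _ (by omega), hπ0, wl_ev, if_neg (by omega)]
  have wE1 : ap w (Ev (n - 1)) = -Fv 1 := by
    rw [hw, ap_mul, perm_ev π _ (by omega), hπ1, wl_ev, if_pos ⟨rfl, by omega⟩]
  have wF2 : ap w (Fv (n - 2)) = Fv 0 := by
    rw [hw, ap_mul, perm_fv π _ (by omega), hπ0, wl_fv, if_neg (by omega)]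
  have wF1 : ap w (Fv (n - 1)) = Ev 1 := by
    rw [hw, ap_mul, perm_fv π _ (by omega), hπ1, wl_fv, if_pos ⟨rfl, by omega⟩]
  set a := Ev 0 + Ev (n - 1) with hadef
  have vE0 : ap v (Ev 0) = a := by
    rw [hvdef, conj_ap w wE2, show n - 2 = n - 3 + 1 by omega, uu_ev _ (by omega), ap,
      Matrix.mulVec_add]
    change ap w _ + ap w _ = _
    rw [show n - 3 + 1 = n - 2 by omega, wE2, wE _ (by omega), show n - 3 + 2 = n - 1 by omega]
  have vE1 : ap v (Ev 1) = Ev 1 - Fv 1 := by
    rw [hvdef, conj_ap w wF1, uu_last (by omega), ap, Matrix.mulVec_add]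
    change ap w _ + ap w _ = _
    rw [wF1, wE1, sub_eq_add_neg]
  have uFl3 : ap uA (Fv (n - 3)) = Fv (n - 3) - Fv (n - 2) + Fv (n - 1) + Ev (n - 1) := by
    have h3 := uu_fv (F := F) (n := n) (n - 3) (by omega)
    have h2 := uu_fv (F := F) (n := n) (n - 2) (by omega)
    rw [show n - 3 + 1 = n - 2 by omega, ap, Matrix.mulVec_add] at h3
    rw [show n - 2 + 1 = n - 1 by omega, ap, Matrix.mulVec_add] at h2
    have hl := uu_last (F := F) (n := n) (by omega)
    simp only [ap] at hl ⊢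
    rw [hl] at h2
    rw [eq_sub_of_add_eq h3, eq_sub_of_add_eq h2]
    abel
  have vFl : ap v (Fv (n - 1)) = Fv (n - 1) - Fv 0 + Ev 1 - Fv 1 := by
    have h := wF (n - 3) (by omega)
    rw [show n - 3 + 2 = n - 1 by omega] at h
    rw [hvdef, conj_ap w h, uFl3]
    simp only [ap, Matrix.mulVec_add, Matrix.mulVec_sub]
    change ap w _ - ap w _ + ap w _ + ap w _ = _
    rw [h, wF2, wF1, wE1]; abel
  have hba : β a (Ev 0) = 0 := by simp [hadef, b_ee]
  -- scalars
  have down : ∀ (t : F) (c : F) (k : ℕ), k + 1 < n → RG M (t • Ev (k + 1)) c → RG M (t • Ev k) 0 := by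
    intro t c k hk h
    have := h.diff hu uu_iso uu_e0
    rw [ap, Matrix.mulVec_smul, show (uA : GG n F).val *ᵥ _ = _ from uu_ev k hk] at this
    simpa [b_ee, smul_add] using this
  have descend : ∀ (t : F) (d : ℕ) (c : F), 1 ≤ d → d < n → RG M (t • Ev (n - 1)) c →
      RG M (t • Ev (n - 1 - d)) 0 := by
    intro t d c hd1 hd h
    induction d with
    | zero => omega
    | succ d ih =>
      rcases Nat.eq_zero_or_pos d with rfl | hd0
      · exact down t c _ (by omega) (by rwa [show n - 1 - (0 + 1) + 1 = n - 1 by omega])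
      · refine down t 0 _ (by omega) ?_
        rw [show n - 1 - (d + 1) + 1 = n - 1 - d by omega]
        exact ih hd0 (by omega)
  let Γ : AddSubgroup F :=
    { carrier := {t | RG M (t • Ev 1) 0}
      zero_mem' := by simpa using RG.zero (M := M)
      add_mem' := fun {x y} hx hy => by
        have := RG.add hx hy
        simpa [← add_smul, b_ee] using this
      neg_mem' := fun {x} hx => by simpa using RG.neg hx }
  have loop : ∀ t s : F, RG M (t • Ev 1) 0 → RG M (s • Ev 1) 0 → RG M ((t * s) • a) 0 := by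
    intro t s ht hs
    set Y := v * R (Ev 0) (t • Ev 1) 0 * v⁻¹
    have hY : Y ∈ M := mul_mem (mul_mem hv ht.2) (inv_mem hv)
    have hYe : Y = R a (t • (Ev 1 - Fv 1)) 0 := by
      rw [show Y = R (ap v (Ev 0)) (ap v (t • Ev 1)) 0 from R_conj hvi _ _ _, vE0, ap,
        Matrix.mulVec_smul]
      rw [show v.val *ᵥ Ev 1 = _ from vE1]
    have hxa : β (t • (Ev 1 - Fv 1)) a = 0 := by
      simp [hadef, b_ee, b_fe, show 1 ≠ n - 1 by omega]
    have hY0 : ap Y (Ev 0) = Ev 0 := by
      rw [hYe, R_ap hxa]; simp [hadef, b_ee, b_ef]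
    have := hs.diff hY (hYe ▸ R_iso _ _ _) hY0
    have hval : ap Y (s • Ev 1) = s • Ev 1 + (t * s) • a := by
      rw [hYe, R_ap hxa]
      simp [hadef, b_ee, b_ef, show 1 < n by omega, smul_add, mul_comm t s]
    rw [hval, add_sub_cancel_left] at this
    simpa [hadef, b_ee] using this
  have toEl : ∀ t : F, RG M (t • a) 0 → RG M (t • Ev (n - 1)) (2 * t) := fun t h => by
    have h' : RG M (t • Ev (n - 1) + t • Ev 0) 0 := by rwa [add_comm, ← smul_add]
    simpa using h'.shift
  have hK := start (by omega) ω hu hg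
  have hω : RG M ((-ω) • Ev 1) 0 := by
    have := descend (-ω) (n - 2) (ω ^ 2) (by omega) (by omega) hK
    rwa [show n - 1 - (n - 2) = 1 by omega] at this
  have hclosed : ∀ t s, t ∈ Γ → s ∈ Γ → t * s ∈ Γ := fun t s ht hs => by
    have := descend (t * s) (n - 2) _ (by omega) (by omega) (toEl _ (loop t s ht hs))
    rwa [show n - 1 - (n - 2) = 1 by omega] at this
  have hωζ : -ω = ζ := by simp [hωdef]
  rw [hωζ] at hω
  have hΓ : ∀ t, t ∈ Γ :=
    addSubgroup_eq_top hζ Γ hω hζ0 (fun t ht => hclosed ζ t hω ht)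
  have hRa : ∀ t : F, RG M (t • a) 0 := fun t => by
    simpa using loop 1 t (hΓ 1) (hΓ t)
  have hEl : ∀ t : F, RG M (t • Ev (n - 1)) (2 * t) := fun t => toEl t (hRa t)
  have hEk : ∀ k, k + 1 < n → ∀ t : F, RG M (t • Ev k) 0 := fun k hk t => by
    have := descend t (n - 1 - k) (2 * t) (by omega) (by omega) (hEl t)
    rwa [show n - 1 - (n - 1 - k) = k by omega] at this
  have h2A : ∀ t : F, 2 * t ∈ coeffs M := fun t => by
    have h' : RG M (0 + t • Ev 0) 0 := by rw [zero_add]; exact hEk 0 (by omega) t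
    simpa [mem_coeffs] using h'.shift
  have hLE : ∀ k, Ev k ∈ lines M := fun k t => by
    by_cases hk : k + 1 < n
    · exact ⟨_, hEk k hk t⟩
    by_cases hk' : k < n
    · rw [show k = n - 1 by omega]; exact ⟨_, hEl t⟩
    · exact ⟨0, by simpa [ev, hk'] using RG.zero (M := M)⟩
  -- a non-zero coefficient
  obtain ⟨δ, hδ0, hδ⟩ : ∃ δ, δ ≠ 0 ∧ δ ∈ coeffs M := by
    have hd := coeffs_of_diff hK (hEl (-ω))
    by_cases h2 : (2 : F) = 0
    · refine ⟨_, ?_, hd⟩
      rw [h2, zero_mul, sub_zero]; exact pow_ne_zero 2 (by rw [hωdef]; exact neg_ne_zero.2 hζ0)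
    · exact ⟨2 * 1, by simpa using h2, h2A 1⟩
  -- leaving the span of the first half
  obtain ⟨j, hj⟩ : ∃ j : ℕ, β (Ev 1) (ap v (ap (uA ^ j) a)) ≠ 0 := by
    by_contra! h
    have hd : ∀ d, d < n - 1 → ∀ j, β (Ev 1) (ap v (ap (uA ^ j) (Ev (n - 1 - (d + 1))))) = 0 := by
      intro d
      induction d with
      | zero =>
        intro _ j
        have h1 : Ev (n - 1 - (0 + 1)) = ap uA a - a := by
          have := uu_ev (F := F) (n := n) (n - 2) (by omega)
          rw [show n - 2 + 1 = n - 1 by omega] at this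
          simp only [hadef, ap, Matrix.mulVec_add] at this ⊢
          rw [this, show (uA : GG n F).val *ᵥ Ev 0 = _ from uu_e0, show n - 1 - (0 + 1) = n - 2 by omega]
          abel
        rw [h1]
        have h2 := h (j + 1)
        rw [pow_succ, ap_mul (uA ^ j) uA] at h2
        simp only [ap, Matrix.mulVec_sub] at h2 ⊢
        rw [map_sub, h2, h j, sub_zero]
      | succ d ih =>
        intro hd j
        have h1 : Ev (n - 1 - (d + 1 + 1)) = ap uA (Ev (n - 1 - (d + 1))) - Ev (n - 1 - (d + 1)) := by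
          rw [show n - 1 - (d + 1) = n - 1 - (d + 1 + 1) + 1 by omega, uu_ev _ (by omega)]; abel
        rw [h1]
        have h2 := ih (by omega) (j + 1)
        rw [pow_succ, ap_mul (uA ^ j) uA] at h2
        simp only [ap, Matrix.mulVec_sub] at h2 ⊢
        rw [map_sub, h2, ih (by omega) j, sub_zero]
    have := hd (n - 3) (by omega) 0
    rw [show n - 1 - (n - 3 + 1) = 1 by omega, pow_zero] at this
    have e1 : ap (1 : GG n F) (Ev 1) = Ev 1 := by simp [ap]
    rw [e1, vE1] at this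
    simp [b_ee, b_ef, show 1 < n by omega] at this
  set SE : Submodule F (Vec n F) := Submodule.span F (Set.range fun k : ℕ => Ev k) with hSE
  have hSu : ∀ x ∈ SE, ap uA x ∈ SE := by
    intro x hx
    induction hx using Submodule.span_induction with
    | mem y hy =>
      obtain ⟨k, rfl⟩ := hy
      by_cases hk : k < n
      · rcases Nat.eq_zero_or_pos k with rfl | hk0
        · rw [uu_e0]; exact Submodule.subset_span ⟨0, rfl⟩
        · rw [show k = k - 1 + 1 by omega, uu_ev _ (by omega)]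
          exact add_mem (Submodule.subset_span ⟨_, rfl⟩) (Submodule.subset_span ⟨_, rfl⟩)
      · simp [ap, ev, hk]
    | zero => simp [ap]
    | add x y _ _ hx hy => rw [ap, Matrix.mulVec_add]; exact add_mem hx hy
    | smul c x _ hx => rw [ap, Matrix.mulVec_smul]; exact SE.smul_mem c hx
  have hvE : ∀ x ∈ SE, ∃ s ∈ SE, ∃ c : F, ap v x = s + c • Fv 1 := by
    intro x hx
    induction hx using Submodule.span_induction with
    | mem y hy =>
      obtain ⟨k, rfl⟩ := hy
      have hm : ∀ i, Ev i ∈ SE := fun i => Submodule.subset_span ⟨i, rfl⟩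
      by_cases hk : k < n
      · match k, hk with
        | 0, _ => exact ⟨a, add_mem (hm _) (hm _), 0, by simp [vE0]⟩
        | 1, _ => exact ⟨Ev 1, hm _, -1, by simp [vE1, sub_eq_add_neg]⟩
        | 2, hk => exact ⟨Ev 2, hm _, 0, by
            rw [hvdef, conj_ap w (wE 0 (by omega)), uu_e0, wE 0 (by omega)]; simp⟩
        | k + 3, hk => exact ⟨Ev (k + 3) + Ev (k + 2), add_mem (hm _) (hm _), 0, by
            rw [hvdef, conj_ap w (wE (k + 1) (by omega)), uu_ev k (by omega), ap, Matrix.mulVec_add]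
            change ap w _ + ap w _ = _
            rw [wE _ (by omega), wE _ (by omega)]; simp⟩
      · exact ⟨0, zero_mem _, 0, by simp [ap, ev, hk]⟩
    | zero => exact ⟨0, zero_mem _, 0, by simp [ap]⟩
    | add x y _ _ hx hy =>
      obtain ⟨s, hs, c, hc⟩ := hx; obtain ⟨t, ht, d, hd⟩ := hy
      simp only [ap] at hc hd
      exact ⟨s + t, add_mem hs ht, c + d, by rw [ap, Matrix.mulVec_add, hc, hd]; module⟩
    | smul r x _ hx =>
      obtain ⟨s, hs, c, hc⟩ := hx
      simp only [ap] at hc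
      exact ⟨r • s, SE.smul_mem r hs, r * c, by rw [ap, Matrix.mulVec_smul, hc]; module⟩
  have hSl : SE ≤ lines M := Submodule.span_le.2 (by rintro _ ⟨k, rfl⟩; exact hLE k)
  have hS0 : ∀ x ∈ SE, β x (Ev 0) = 0 := by
    intro x hx
    induction hx using Submodule.span_induction with
    | mem y hy => obtain ⟨k, rfl⟩ := hy; exact b_ee _ _
    | zero => simp
    | add x y _ _ hx hy => simp [hx, hy]
    | smul c x _ hx => simp [hx]
  have hpowS : ∀ i, ap (uA ^ i) a ∈ SE := by
    intro i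
    induction i with
    | zero =>
      have h1 : Ev 0 ∈ SE := Submodule.subset_span ⟨0, rfl⟩
      have h2 : Ev (n - 1) ∈ SE := Submodule.subset_span ⟨n - 1, rfl⟩
      simpa [ap, hadef] using add_mem h1 h2
    | succ i ih => rw [pow_succ', ap_mul]; exact hSu _ ih
  obtain ⟨s, hs, σ, hσ⟩ := hvE _ (hpowS j)
  set b := s + σ • Fv 1 with hb
  have hb0 : β b (Ev 0) = 0 := by simp [hb, hS0 s hs, b_fe]
  have hg3 : ap (v * uA ^ j * v) (Ev 0) = b := by rw [ap_mul, ap_mul, vE0, hσ]
  have hgM : v * uA ^ j * v ∈ M := mul_mem (mul_mem hv (pow_mem hu j)) hv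
  have hgI : v * uA ^ j * v ∈ isoGroup β := mul_mem (mul_mem hvi (pow_mem uu_iso j)) hvi
  have hTb : T b δ ∈ M := by
    rw [← hg3]
    have := mul_mem (mul_mem hgM (coeffs_T hδ)) (inv_mem hgM)
    rwa [sympT_conj (stdB_isAlt n) hgI] at this
  have hTe : ap (T b δ) (Ev 0) = Ev 0 := by
    rw [T_ap, b_swap, hb0]; simp
  rw [hσ] at hj
  have hbL : b ∈ lines M := by
    intro t
    have := (hEk 1 (by omega) (t / (δ * β (Ev 1) b))).diff hTb (T_iso _ _) hTe
    rw [T_ap, add_sub_cancel_left, map_smul, LinearMap.smul_apply, smul_eq_mul,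
      show δ * (t / (δ * β (Ev 1) b) * β (Ev 1) b) = t by field_simp] at this
    exact ⟨_, this⟩
  have hσ0 : σ ≠ 0 := by
    rintro rfl
    apply hj
    have : ∀ x ∈ SE, β (Ev 1) x = 0 := by
      intro x hx
      induction hx using Submodule.span_induction with
      | mem y hy => obtain ⟨k, rfl⟩ := hy; exact b_ee _ _
      | zero => simp
      | add x y _ _ hx hy => simp [hx, hy]
      | smul c x _ hx => simp [hx]
    simp [hb, this s hs]
  have hF1 : Fv 1 ∈ lines M := by
    have h := Submodule.sub_mem _ hbL (hSl hs)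
    rw [hb, add_sub_cancel_left] at h
    have := (lines M).smul_mem σ⁻¹ h
    rwa [inv_smul_smul₀ hσ0] at this
  have hu' : ap (uA)⁻¹ (Ev 0) = Ev 0 := ap_inv _ uu_e0
  have hL : ∀ x, β x (Ev 0) = 0 → x ∈ lines M :=
    span_all _ (by omega) (fun x hx => lines_ap hu uu_iso uu_e0 hx)
      (fun x hx => lines_ap (inv_mem hu) (inv_mem uu_iso) hu' hx) hF1
  -- all coefficients
  have hA : ∀ c, c ∈ coeffs M := by
    refine coeffs_top_of_sq (fun t => ?_) h2A
    obtain ⟨c, hc⟩ := hL (Fv (n - 1)) (by simp [b_fe]; omega) t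
    have h := hc.diff hu uu_iso uu_e0
    rw [ap, Matrix.mulVec_smul, show (uA : GG n F).val *ᵥ _ = _ from uu_last (by omega)] at h
    simp only [smul_add, add_sub_cancel_left, map_add, map_smul, LinearMap.add_apply,
      LinearMap.smul_apply, smul_eq_mul, b_ff, b_ef, if_pos (And.intro (rfl : n - 1 = n - 1) (show n - 1 < n by omega))] at h
    have := coeffs_of_diff (hEl t) h
    have h3 := sub_mem this (h2A t)
    convert h3 using 1
    rw [if_pos ⟨trivial, by omega⟩]; ring
  refine iso_le (by omega) hA hL ?_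
  by_contra! h
  set P := perpCore (M ⊓ isoGroup β)
  have hu1 : uA ∈ M ⊓ isoGroup β := ⟨hu, uu_iso⟩
  have hv1 : v ∈ M ⊓ isoGroup β := ⟨hv, hvi⟩
  have he : Ev 0 ∈ P := fun g hg => h g hg.1 hg.2
  have haP : a ∈ P := vE0 ▸ perpCore_ap hv1 he
  have hlP : Ev (n - 1) ∈ P := by
    have := P.sub_mem haP he
    rwa [hadef, add_sub_cancel_left] at this
  have hdown : ∀ i, i < n → Ev (n - 1 - i) ∈ P := by
    intro i
    induction i with
    | zero => intro _; simpa using hlP
    | succ i ih =>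
      intro hi
      have h1 := ih (by omega)
      rw [show n - 1 - i = n - 1 - (i + 1) + 1 by omega] at h1
      have h2 := perpCore_ap hu1 h1
      rw [uu_ev _ (by omega)] at h2
      simpa using P.sub_mem h2 h1
  have h1P : Ev 1 ∈ P := by
    have := hdown (n - 2) (by omega)
    rwa [show n - 1 - (n - 2) = 1 by omega] at this
  have hf1P : Fv 1 ∈ P := by
    have := P.sub_mem h1P (perpCore_ap hv1 h1P)
    rwa [vE1, sub_sub_cancel] at this
  have hflP : Fv (n - 1) ∈ P :=
    span_all P (by omega) (fun x hx => perpCore_ap hu1 hx)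
      (fun x hx => perpCore_ap (inv_mem hu1) hx) hf1P _ (by simp [b_fe]; omega)
  have := hflP v hv1
  rw [vFl] at this
  simp [b_fe, b_ee, show 0 < n by omega, show n - 1 ≠ 0 by omega] at this

end Cfsg.Agent.Lib.SpRegGen
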