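import Cfsg.Agent.Lib.SpRegGen.Gen

/-!
The four-dimensional symplectic groups.
-/

set_option autoImplicit false

namespace Cfsg.Agent.Lib.SpRegGen

open Matrix Cfsg.Agent.Lib.Forms

variable {F : Type*} [Field F]

local notation "β" => stdB 2 F
local notation "Ev" => ev 2 F
local notation "Fv" => fv 2 F
local notation "uA" => uu 2 F

/-- the Weyl element used for `n = 2` -/
noncomputable def w2 (F : Type*) [Field F] : GG 2 F := T (ev 2 F 1) 1 * wl 2 F 1 * wl 2 F 0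

theorem w2_iso : w2 F ∈ isoGroup β := mul_mem (mul_mem (T_iso _ _) (wl_iso _)) (wl_iso _)

theorem w2_e0 : ap (w2 F) (Ev 0) = -Fv 0 := by
  rw [w2, ap_mul, ap_mul, wl_ev, if_pos ⟨rfl, by norm_num⟩]
  simp only [ap, Matrix.mulVec_neg]
  change -(ap (T (Ev 1) 1) (ap (wl 2 F 1) (Fv 0))) = _
  rw [wl_fv, if_neg (by omega)]
  rw [T_ap, b_fe, if_neg (by omega)]; simp

theorem w2_f0 : ap (w2 F) (Fv 0) = Ev 0 := by
  rw [w2, ap_mul, ap_mul, wl_fv, if_pos ⟨rfl, by norm_num⟩, wl_ev, if_neg (by omega), T_ap, b_ee]; simp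

theorem w2_e1 : ap (w2 F) (Ev 1) = -Fv 1 - Ev 1 := by
  rw [w2, ap_mul, ap_mul, wl_ev, if_neg (by omega), wl_ev, if_pos ⟨rfl, by norm_num⟩, T_ap, map_neg,
    LinearMap.neg_apply, b_fe, if_pos ⟨rfl, by norm_num⟩]
  module

theorem w2_f1 : ap (w2 F) (Fv 1) = Ev 1 := by
  rw [w2, ap_mul, ap_mul, wl_fv, if_neg (by omega), wl_fv, if_pos ⟨rfl, by norm_num⟩, T_ap, b_ee]; simp

theorem u2_e1 : ap uA (Ev 1) = Ev 1 + Ev 0 := uu_ev 0 (by norm_num)

theorem u2_f1 : ap uA (Fv 1) = Fv 1 + Ev 1 := uu_last (by norm_num)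

theorem u2_f0 : ap uA (Fv 0) = Fv 0 - Fv 1 - Ev 1 := by
  have h := uu_fv (F := F) (n := 2) 0 (by norm_num)
  have h1 := u2_f1 (F := F)
  simp only [ap, zero_add, Matrix.mulVec_add] at h h1 ⊢
  rw [eq_sub_of_add_eq h, h1]; abel

variable {M : Subgroup (GG 2 F)}

theorem finish_two (hu : uA ∈ M) (hv : w2 F * uA * (w2 F)⁻¹ ∈ M) (hA : ∀ c, c ∈ coeffs M)
    (hF : Fv 1 ∈ lines M) : isoGroup β ≤ M := by
  set v := w2 F * uA * (w2 F)⁻¹ with hvdef
  have hvi : v ∈ isoGroup β := mul_mem (mul_mem w2_iso uu_iso) (inv_mem w2_iso)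
  have hu' : ap (uA)⁻¹ (Ev 0) = Ev 0 := ap_inv _ uu_e0
  have hL : ∀ x, β x (Ev 0) = 0 → x ∈ lines M :=
    span_all _ (by norm_num) (fun x hx => lines_ap hu uu_iso uu_e0 hx)
      (fun x hx => lines_ap (inv_mem hu) (inv_mem uu_iso) hu' hx) hF
  have vE0 : ap v (Ev 0) = Ev 0 + Fv 1 := by
    rw [hvdef, conj_ap _ w2_f0, u2_f0, ap, Matrix.mulVec_sub, Matrix.mulVec_sub]
    change ap (w2 F) _ - ap (w2 F) _ - ap (w2 F) _ = _
    rw [w2_f0, w2_f1, w2_e1]; abel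
  have hpre : ap (w2 F) (-Ev 1 - Fv 1) = Fv 1 := by
    rw [ap, Matrix.mulVec_sub, Matrix.mulVec_neg]
    change -ap (w2 F) _ - ap (w2 F) _ = _
    rw [w2_e1, w2_f1]; abel
  have vF1 : ap v (Fv 1) = Fv 0 + (2 : F) • Fv 1 + Ev 1 := by
    rw [hvdef, conj_ap _ hpre]
    simp only [ap, Matrix.mulVec_sub, Matrix.mulVec_neg]
    change -(ap (w2 F) (ap uA (Ev 1))) - ap (w2 F) (ap uA (Fv 1)) = _
    rw [u2_e1, u2_f1]
    simp only [ap, Matrix.mulVec_sub, Matrix.mulVec_neg, Matrix.mulVec_add]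
    change -(ap (w2 F) _ + ap (w2 F) _) - (ap (w2 F) _ + ap (w2 F) _) = _
    rw [w2_e0, w2_e1, w2_f1]; module
  refine iso_le (by norm_num) hA hL ?_
  by_contra! h
  set P := perpCore (M ⊓ isoGroup β)
  have hv1 : v ∈ M ⊓ isoGroup β := ⟨hv, hvi⟩
  have he : Ev 0 ∈ P := fun g hg => h g hg.1 hg.2
  have hfP : Fv 1 ∈ P := by
    have := P.sub_mem (perpCore_ap hv1 he) he
    rwa [vE0, add_sub_cancel_left] at this
  have := hfP v hv1
  rw [vF1] at this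
  simp [b_fe, b_ee] at this

/-- odd characteristic -/
theorem gen_two_odd [Fintype F] (h2 : (2 : F) ≠ 0) :
    ∃ g w : GG 2 F, g ∈ isoGroup β ∧ w ∈ isoGroup β ∧
      ∀ M : Subgroup (GG 2 F), uA ∈ M → g * uA * g⁻¹ ∈ M → w * uA * w⁻¹ ∈ M → isoGroup β ≤ M := by
  obtain ⟨ζ, hζ0, hζ⟩ := exists_zeta (F := F)
  set ω : F := ζ / 2 with hωdef
  refine ⟨R (Ev 0) (ω • Fv 1) 0, w2 F, R_iso _ _ _, w2_iso, fun M hu hg hv => ?_⟩
  set v := w2 F * uA * (w2 F)⁻¹ with hvdef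
  have hvi : v ∈ isoGroup β := mul_mem (mul_mem w2_iso uu_iso) (inv_mem w2_iso)
  have vE0 : ap v (Ev 0) = Ev 0 + Fv 1 := by
    rw [hvdef, conj_ap _ w2_f0, u2_f0, ap, Matrix.mulVec_sub, Matrix.mulVec_sub]
    change ap (w2 F) _ - ap (w2 F) _ - ap (w2 F) _ = _
    rw [w2_f0, w2_f1, w2_e1]; abel
  let Γ : AddSubgroup F :=
    { carrier := {t | ∃ c, RG M (t • Ev 1) c}
      zero_mem' := ⟨0, by simpa using RG.zero (M := M)⟩
      add_mem' := fun {x y} ⟨c, hc⟩ ⟨d, hd⟩ => ⟨_, by rw [add_smul]; exact hc.add hd⟩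
      neg_mem' := fun {x} ⟨c, hc⟩ => ⟨_, by rw [neg_smul]; exact hc.neg⟩ }
  have toA : ∀ t ∈ Γ, 2 * t ∈ coeffs M := by
    rintro t ⟨c, hc⟩
    have h := hc.diff hu uu_iso uu_e0
    rw [ap, Matrix.mulVec_smul, show (uA : GG 2 F).val *ᵥ Ev 1 = _ from u2_e1] at h
    have h' : RG M (0 + t • Ev 0) 0 := by simpa [smul_add, b_ee] using h
    simpa [mem_coeffs] using h'.shift
  have step : ∀ t s, t ∈ Γ → s ∈ Γ → (∃ c, RG M ((-(2 * t * s)) • Fv 1) c) := by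
    intro t s ht hs
    obtain ⟨c, hc⟩ := hs
    have hT : T (ap v (Ev 0)) (2 * t) ∈ M := by
      have := mul_mem (mul_mem hv (coeffs_T (toA t ht))) (inv_mem hv)
      rwa [sympT_conj (stdB_isAlt 2) hvi] at this
    have hTe : ap (T (ap v (Ev 0)) (2 * t)) (Ev 0) = Ev 0 := by
      rw [T_ap, vE0]; simp [b_ee, b_ef]
    have h := hc.diff hT (T_iso _ _) hTe
    rw [T_ap, add_sub_cancel_left, vE0] at h
    have he : (2 * t * β (s • Ev 1) (Ev 0 + Fv 1)) • (Ev 0 + Fv 1) =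
        (-(2 * t * s)) • Fv 1 + (-(2 * t * s)) • Ev 0 := by
      simp [b_ee, b_ef]; module
    rw [he] at h
    exact ⟨_, h.shift⟩
  have stepE : ∀ t s, t ∈ Γ → s ∈ Γ → -(2 * t * s) ∈ Γ := by
    intro t s ht hs
    obtain ⟨c, hc⟩ := step t s ht hs
    have h := hc.diff hu uu_iso uu_e0
    rw [ap, Matrix.mulVec_smul, show (uA : GG 2 F).val *ᵥ Fv 1 = _ from u2_f1, smul_add,
      add_sub_cancel_left] at h
    exact ⟨_, h⟩
  have hω : -ω ∈ Γ := ⟨_, start (le_refl 2) ω hu hg⟩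
  have hω0 : -ω ≠ 0 := by simp [hωdef, hζ0, h2]
  have hΓ : ∀ t, t ∈ Γ := addSubgroup_eq_top hζ Γ hω hω0 fun t ht => by
    have := stepE _ _ hω ht
    convert this using 1
    rw [hωdef]; field_simp
  refine finish_two hu hv (fun c => ?_) ?_
  · have := toA _ (hΓ (c / 2)); rwa [mul_div_cancel₀ _ h2] at this
  · intro t
    obtain ⟨c, hc⟩ := step 1 (-(t / 2)) (hΓ _) (hΓ _)
    refine ⟨c, ?_⟩
    rwa [show -(2 * 1 * -(t / 2)) = t by field_simp] at hc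

theorem T_add (v : Vec 2 F) (a b : F) : T v a * T v b = T v (a + b) := by
  refine ext_ap fun y => ?_
  rw [ap_mul, T_ap, T_ap, T_ap]; simp [b_self]; module

/-- characteristic two -/
theorem gen_two_even [Fintype F] (h2 : (2 : F) = 0) (hF : Fintype.card F ≠ 2) :
    ∃ g w : GG 2 F, g ∈ isoGroup β ∧ w ∈ isoGroup β ∧
      ∀ M : Subgroup (GG 2 F), uA ∈ M → g * uA * g⁻¹ ∈ M → w * uA * w⁻¹ ∈ M → isoGroup β ≤ M := by
  classical
  haveI : CharP F 2 := CharTwo.of_one_ne_zero_of_two_eq_zero one_ne_zero h2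
  obtain ⟨ζ, hζ0, hζ⟩ := exists_zeta (F := F)
  have hζ1 : ζ ≠ 1 := by
    rintro rfl
    apply hF
    have hu : (Finset.univ : Finset F) = {0, 1} := by
      ext a
      simp only [Finset.mem_univ, Finset.mem_insert, Finset.mem_singleton, true_iff]
      by_cases ha : a = 0
      · exact Or.inl ha
      · obtain ⟨k, hk⟩ := hζ a ha; right; simpa using hk
    rw [← Finset.card_univ, hu]; simp
  obtain ⟨b, hb⟩ := exists_sqrt_two h2 (1 + ζ)
  have hb0 : b ≠ 0 := by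
    rintro rfl
    have h' : (1 : F) + ζ = 0 := by rw [← hb]; simp
    exact hζ1 (by rw [← CharTwo.add_eq_zero, add_comm]; exact h')
  set P : GL (Fin 2) F := Units.map (Matrix.scalar (Fin 2)).toMonoidHom (Units.mk0 b hb0) with hP
  refine ⟨levi 2 F P, w2 F, levi_iso _, w2_iso, fun M hu hg hv => ?_⟩
  set v := w2 F * uA * (w2 F)⁻¹ with hvdef
  have hvi : v ∈ isoGroup β := mul_mem (mul_mem w2_iso uu_iso) (inv_mem w2_iso)
  have hcomm : Commute (levi 2 F P) (levi 2 F (jord 2 F)) := by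
    refine Commute.map ?_ _
    refine Units.ext ?_
    change Matrix.scalar (Fin 2) b * _ = _ * Matrix.scalar (Fin 2) b
    exact (Matrix.scalar_commute b (fun r => Commute.all b r) _).eq
  have hge : ap (levi 2 F P) (Ev 1) = b • Ev 1 := by
    rw [ev_elim, levi_ap, mulVec_zero]
    change Sum.elim ((Matrix.scalar (Fin 2) b) *ᵥ sv 2 F 1) (0 : Fin 2 → F) = _
    funext x; rcases x with i | i <;> simp [Matrix.mulVec_diagonal]
  have hTE : T (Ev 1) ζ ∈ M := by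
    have h : levi 2 F P * uA * (levi 2 F P)⁻¹ = T (b • Ev 1) 1 * levi 2 F (jord 2 F) := by
      rw [← hge, show T (ap (levi 2 F P) (Ev 1)) 1 = levi 2 F P * T (Ev 1) 1 * (levi 2 F P)⁻¹ from
        (sympT_conj (stdB_isAlt 2) (levi_iso P) (Ev 1) 1).symm, uu]
      have h' : levi 2 F (jord 2 F) * (levi 2 F P)⁻¹ = (levi 2 F P)⁻¹ * levi 2 F (jord 2 F) :=
        (hcomm.symm.inv_right).eq
      simp only [mul_assoc, show (2 : ℕ) - 1 = 1 from rfl, h']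
    have h3 := mul_mem hg (inv_mem hu)
    rw [h, uu, show (2 : ℕ) - 1 = 1 from rfl, _root_.mul_inv_rev, mul_assoc, mul_inv_cancel_left,
      show T (b • Ev 1) 1 = T (Ev 1) (b ^ 2) by rw [T, sympT_smul (stdB_isAlt 2)]; ring_nf] at h3
    have h4 : (T (Ev 1) (1 : F))⁻¹ = T (Ev 1) 1 := by
      refine inv_eq_of_mul_eq_one_right ?_
      rw [T_add, CharTwo.add_self_eq_zero]
      exact ext_ap fun y => by rw [T_ap]; simp [ap]
    rw [h4, T_add, hb, add_comm (1 : F) ζ, add_assoc, CharTwo.add_self_eq_zero, add_zero] at h3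
    exact h3
  have hTF : T (Fv 1) ζ ∈ M := by
    have := mul_mem (mul_mem hv hTE) (inv_mem hv)
    rw [sympT_conj (stdB_isAlt 2) hvi] at this
    have vE1 : ap v (Ev 1) = -Fv 1 := by
      rw [hvdef, conj_ap _ w2_f1, u2_f1, ap, Matrix.mulVec_add]
      change ap (w2 F) _ + ap (w2 F) _ = _
      rw [w2_f1, w2_e1]; abel
    rw [show (v : GG 2 F).val *ᵥ Ev 1 = _ from vE1] at this
    rwa [← T_neg_vec]
  have hTe : ∀ c, ap (T (Ev 1) c) (Ev 0) = Ev 0 := fun c => by rw [T_ap, b_ee]; simp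
  have hTf : ∀ c, ap (T (Fv 1) c) (Ev 0) = Ev 0 := fun c => by rw [T_ap, b_ef]; simp
  have h0 : RG M (ζ • Ev 1) ζ := by
    have hT' : T (Ev 1 + Ev 0) ζ ∈ M := by
      have := mul_mem (mul_mem hu hTE) (inv_mem hu)
      rw [sympT_conj (stdB_isAlt 2) uu_iso] at this
      rwa [show (uA : GG 2 F).val *ᵥ Ev 1 = _ from u2_e1] at this
    refine ⟨by simp [b_ee], ?_⟩
    have he : R (Ev 0) (ζ • Ev 1) ζ = T (Ev 1) ζ * T (Ev 1 + Ev 0) ζ := by
      refine ext_ap fun y => ?_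
      rw [R_ap (by simp [b_ee]), ap_mul, T_ap, T_ap]
      simp [b_ee]
      match_scalars <;> ring_nf <;> simp [h2]
    rw [he]; exact mul_mem hTE hT'
  let Γ : AddSubgroup F :=
    { carrier := {t | ∃ c, RG M (t • Ev 1) c}
      zero_mem' := ⟨0, by simpa using RG.zero (M := M)⟩
      add_mem' := fun {x y} ⟨c, hc⟩ ⟨d, hd⟩ => ⟨_, by rw [add_smul]; exact hc.add hd⟩
      neg_mem' := fun {x} ⟨c, hc⟩ => ⟨_, by rw [neg_smul]; exact hc.neg⟩ }
  have step : ∀ t ∈ Γ, ∃ c, RG M ((ζ * t) • Fv 1) c := by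
    rintro t ⟨c, hc⟩
    have h := hc.diff hTF (T_iso _ _) (hTf ζ)
    rw [T_ap, add_sub_cancel_left, map_smul, LinearMap.smul_apply, smul_eq_mul, b_ef,
      if_pos ⟨rfl, by norm_num⟩, CharTwo.neg_eq, mul_one] at h
    exact ⟨_, h⟩
  have hΓ : ∀ t, t ∈ Γ := by
    have hgen : ∀ a : F, a ≠ 0 → ∃ k : ℕ, a = (ζ ^ 2) ^ k := fun a ha => by
      obtain ⟨s, hs⟩ := exists_sqrt_two h2 a
      obtain ⟨k, hk⟩ := hζ s (by rintro rfl; exact ha (by rw [← hs]; simp))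
      exact ⟨k, by rw [← hs, hk, ← pow_mul, ← pow_mul, mul_comm]⟩
    refine addSubgroup_eq_top hgen Γ (x₀ := ζ) ⟨ζ, h0⟩ hζ0 fun t ht => ?_
    obtain ⟨c, hc⟩ := step t ht
    have h := hc.diff hTE (T_iso _ _) (hTe ζ)
    rw [T_ap, add_sub_cancel_left, map_smul, LinearMap.smul_apply, smul_eq_mul, b_fe,
      if_pos ⟨rfl, by norm_num⟩] at h
    exact ⟨_, by rw [show ζ ^ 2 * t = ζ * (ζ * t * 1) by ring]; exact h⟩
  have hF1 : Fv 1 ∈ lines M := fun t => by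
    obtain ⟨c, hc⟩ := step (t / ζ) (hΓ _)
    rw [mul_div_cancel₀ _ hζ0] at hc
    exact ⟨c, hc⟩
  refine finish_two hu hv ?_ hF1
  have key : ∀ t : F, (ζ ^ 2 + ζ) * t ^ 2 ∈ coeffs M := by
    intro t
    obtain ⟨c, hc⟩ := hF1 t
    have ha := hc.diff hTE (T_iso _ _) (hTe ζ)
    obtain ⟨d, hd⟩ := hF1 (ζ * t)
    have hb' := hd.diff hu uu_iso uu_e0
    rw [ap, Matrix.mulVec_smul, show (uA : GG 2 F).val *ᵥ Fv 1 = _ from u2_f1, smul_add,
      add_sub_cancel_left] at hb'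
    rw [T_ap, add_sub_cancel_left] at ha
    simp [b_fe, b_ee, b_ef, b_self, b_ff, CharTwo.neg_eq] at ha hb'
    have := coeffs_of_diff hb' ha
    convert this using 1
    ring_nf
    simp [CharTwo.sub_eq_add, CharTwo.neg_eq]
  intro c
  have hne : ζ ^ 2 + ζ ≠ 0 := by
    intro h
    rw [CharTwo.add_eq_zero, pow_two] at h
    exact hζ1 (mul_left_cancel₀ hζ0 (by rw [h, mul_one]))
  obtain ⟨t, ht⟩ := exists_sqrt_two h2 (c / (ζ ^ 2 + ζ))
  have := key t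
  rwa [ht, mul_div_cancel₀ _ hne] at this

end Cfsg.Agent.Lib.SpRegGen
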